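import Cfsg.Agent.Lib.Amalgam.RankBound
import Cfsg.Agent.Lib.Transfer.Frat

/-!
# Faithful representations of extraspecial groups: the bound on the degree
-/

set_option autoImplicit false
set_option linter.unusedSectionVars false

namespace Cfsg.Agent.Lib.Amalgam.ESBound

open scoped commutatorElement

section Norm

variable {V : Type*} [CommGroup V]

/-- The norm of an automorphism. -/
def nrm (p : ℕ) (t : MulAut V) : V →* V where
  toFun v := ∏ m ∈ Finset.range p, (t ^ m) v
  map_one' := by simp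
  map_mul' u v := by simp [Finset.prod_mul_distrib]

theorem nrm_apply (p : ℕ) (t : MulAut V) (v : V) : nrm p t v = ∏ m ∈ Finset.range p, (t ^ m) v := rfl

theorem apply_nrm {p : ℕ} {t : MulAut V} (ht : t ^ p = 1) (v : V) : t (nrm p t v) = nrm p t v := by
  rw [nrm_apply, map_prod]
  have h1 : ∀ m, t ((t ^ m) v) = (t ^ (m + 1)) v := by
    intro m
    rw [pow_succ']
    rfl
  simp_rw [h1]
  have h2 := Finset.prod_range_succ (fun m => (t ^ m) v) p
  have h3 := Finset.prod_range_succ' (fun m => (t ^ m) v) p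
  rw [h2] at h3
  simp only [ht, pow_zero] at h3
  have h4 : (1 : MulAut V) v = v := rfl
  rw [h4] at h3
  exact (mul_right_cancel h3).symm

theorem pow_fixed {t : MulAut V} {v : V} (h : t v = v) (m : ℕ) : (t ^ m) v = v := by
  induction m with
  | zero => rfl
  | succ m ih =>
    rw [pow_succ]
    show (t ^ m) (t v) = v
    rw [h, ih]

theorem nrm_of_fixed {p : ℕ} {t : MulAut V} {v : V} (h : t v = v) : nrm p t v = v ^ p := by
  rw [nrm_apply]
  simp [pow_fixed h]

variable {p : ℕ} {X C : MulAut V}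

theorem nrm_C (hC : C ^ p = 1) (hfree : ∀ a, ¬ p ∣ a → ∀ v, (C ^ a) v = v → v = 1) {a : ℕ} (ha : ¬ p ∣ a)
    (v : V) : nrm p (C ^ a) v = 1 := by
  apply hfree a ha
  apply apply_nrm
  rw [pow_right_comm, hC, one_pow]

theorem mul_pow_apply (hXC : Commute C X) (j m : ℕ) (v : V) :
    ((C ^ j * X) ^ m) v = ((C ^ m) ^ j) ((X ^ m) v) := by
  rw [((hXC.pow_left j).mul_pow m), pow_right_comm]
  rfl

theorem X_pow_on (hXC : Commute C X) {e : MulAut V} (he : Commute e X) {b : V} (h : X b = e b) (m : ℕ) :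
    (X ^ m) b = (e ^ m) b := by
  induction m with
  | zero => rfl
  | succ m ih =>
    rw [pow_succ]
    show (X ^ m) (X b) = _
    rw [h]
    have h1 : (X ^ m * e) b = (e * X ^ m) b := by
      rw [((he.pow_right m).symm).eq]
    have h2 : (X ^ m) (e b) = e ((X ^ m) b) := h1
    rw [h2, ih, pow_succ']
    rfl

theorem nrm_on_B (hXC : Commute C X) (hC : C ^ p = 1) {i : ℕ} (hi : i ≤ p) {b : V} (hb : (C ^ i * X) b = b)
    (j : ℕ) : nrm p (C ^ j * X) b = nrm p (C ^ (j + (p - i))) b := by
  have hinv : C ^ (p - i) * C ^ i = 1 := by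
    rw [← pow_add, Nat.sub_add_cancel hi, hC]
  have h1 : X b = (C ^ (p - i)) b := by
    have h2 : (C ^ (p - i) * (C ^ i * X)) b = (C ^ (p - i)) b := by
      show (C ^ (p - i)) ((C ^ i * X) b) = _
      rw [hb]
    rw [← mul_assoc, hinv, one_mul] at h2
    exact h2
  rw [nrm_apply, nrm_apply]
  apply Finset.prod_congr rfl
  intro m _
  rw [mul_pow_apply hXC, X_pow_on hXC (hXC.pow_left _) h1 m, ← pow_mul, ← pow_mul]
  have e1 : ((C ^ m) ^ j * (C ^ (p - i)) ^ m) = (C ^ (j + (p - i))) ^ m := by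
    rw [← pow_mul, ← pow_mul, ← pow_mul, ← pow_add]
    congr 1
    ring
  rw [← pow_mul, mul_comm m j, ← pow_mul] at *
  have e2 : (C ^ (j * m) * C ^ ((p - i) * m)) b = (C ^ ((j + (p - i)) * m)) b := by
    rw [← pow_add]
    congr 2
    ring
  exact e2

theorem not_dvd_add_sub {p i j : ℕ} (hp : 0 < p) (hi : i < p) (hj : j < p) (hij : i ≠ j) : ¬ p ∣ j + (p - i) := by
  rintro ⟨q, hq⟩
  have h1 : 0 < j + (p - i) := by omega
  have h2 : j + (p - i) < 2 * p := by omega
  have hq0 : q ≠ 0 := by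
    rintro rfl
    omega
  have hq2 : q < 2 := by
    by_contra hcon
    push Not at hcon
    have : p * 2 ≤ p * q := Nat.mul_le_mul_left _ hcon
    omega
  have hq1 : q = 1 := by omega
  subst hq1
  omega

/-- Independence of the fixed subgroups. -/
theorem indep (hp : 0 < p) (hXC : Commute C X) (hC : C ^ p = 1)
    (hfree : ∀ a, ¬ p ∣ a → ∀ v, (C ^ a) v = v → v = 1) (hpinj : ∀ v : V, v ^ p = 1 → v = 1)
    (b : Fin p → V) (hb : ∀ i : Fin p, (C ^ (i : ℕ) * X) (b i) = b i) (h1 : ∏ i, b i = 1) (j : Fin p) :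
    b j = 1 := by
  apply hpinj
  have h2 := congrArg (nrm p (C ^ (j : ℕ) * X)) h1
  rw [map_prod, map_one, Finset.prod_eq_single j] at h2
  · rwa [nrm_of_fixed (hb j)] at h2
  · intro i _ hij
    rw [nrm_on_B hXC hC i.2.le (hb i)]
    exact nrm_C hC hfree (not_dvd_add_sub hp i.2 j.2 (fun h => hij (Fin.ext h))) _
  · intro h
    exact absurd (Finset.mem_univ j) h

/-- Generation by the fixed subgroups. -/
theorem gen_prod (hp : 0 < p) (hXC : Commute C X) (hC : C ^ p = 1)
    (hfree : ∀ a, ¬ p ∣ a → ∀ v, (C ^ a) v = v → v = 1) (v : V) :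
    ∏ j ∈ Finset.range p, nrm p (C ^ j * X) v = v ^ p := by
  simp_rw [nrm_apply, mul_pow_apply hXC]
  rw [Finset.prod_comm]
  rw [Finset.prod_eq_single 0]
  · simp
  · intro m hm hm0
    have hmp : m < p := Finset.mem_range.mp hm
    have h1 : ¬ p ∣ m := Nat.not_dvd_of_pos_of_lt (Nat.pos_of_ne_zero hm0) hmp
    exact nrm_C hC hfree h1 _
  · intro h
    exact absurd (Finset.mem_range.mpr hp) h

/-- The fixed subgroup of an automorphism. -/
def fixS (t : MulAut V) : Subgroup V where
  carrier := {v | t v = v}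
  mul_mem' := by
    intro a b ha hb
    show t (a * b) = a * b
    rw [map_mul, ha, hb]
  one_mem' := map_one t
  inv_mem' := by
    intro a ha
    show t a⁻¹ = a⁻¹
    rw [map_inv, ha]

theorem mem_fixS {t : MulAut V} {v : V} : v ∈ fixS t ↔ t v = v := Iff.rfl

/-- The relations between `X`, `Y`, `C`. -/
theorem Y_pow_X {Y : MulAut V} (hYC : Commute Y C) (hrel : Y * X = (C * X) * Y) (i : ℕ) :
    Y ^ i * X = (C ^ i * X) * Y ^ i := by
  induction i with
  | zero => simp
  | succ i ih =>
    have e1 : Y ^ (i + 1) * X = Y * (Y ^ i * X) := by rw [pow_succ']; group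
    rw [e1, ih, ← mul_assoc, ← mul_assoc, (hYC.pow_right i).eq, mul_assoc (C ^ i) Y X, hrel]
    have e2 : C ^ (i + 1) * X * Y ^ (i + 1) = C ^ i * (C * X * Y) * Y ^ i := by
      rw [pow_succ C i, pow_succ Y i]
      group
    rw [e2]

/-- `|C_V(X)|^p ≤ |V|`, and `C_V(X) ≠ 1` if `V ≠ 1`. -/
theorem fix_bound [Finite V] {Y : MulAut V} (hp : 0 < p) (hXC : Commute C X) (hC : C ^ p = 1) (hX : X ^ p = 1)
    (hfree : ∀ a, ¬ p ∣ a → ∀ v, (C ^ a) v = v → v = 1) (hpinj : ∀ v : V, v ^ p = 1 → v = 1)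
    (hYC : Commute Y C) (hrel : Y * X = (C * X) * Y) :
    Nat.card (fixS X) ^ p ≤ Nat.card V ∧ (fixS X = ⊥ → ∀ v : V, v = 1) := by
  have hYX := Y_pow_X hYC hrel
  constructor
  · let Ψ : (Fin p → fixS X) → V := fun f => ∏ i : Fin p, (Y ^ (i : ℕ)) (f i : V)
    have hΨ : Function.Injective Ψ := by
      intro f g hfg
      funext j
      apply Subtype.ext
      let b : Fin p → V := fun i => (Y ^ (i : ℕ)) ((f i : V) * (g i : V)⁻¹)
      have hb : ∀ i : Fin p, (C ^ (i : ℕ) * X) (b i) = b i := by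
        intro i
        have h1 : ((C ^ (i : ℕ) * X) * Y ^ (i : ℕ)) ((f i : V) * (g i : V)⁻¹) =
            (Y ^ (i : ℕ) * X) ((f i : V) * (g i : V)⁻¹) := by rw [hYX]
        have h2 : X ((f i : V) * (g i : V)⁻¹) = (f i : V) * (g i : V)⁻¹ :=
          mem_fixS.mp (Subgroup.mul_mem _ (f i).2 (Subgroup.inv_mem _ (g i).2))
        have h3 : (Y ^ (i : ℕ) * X) ((f i : V) * (g i : V)⁻¹) = (Y ^ (i : ℕ)) (X ((f i : V) * (g i : V)⁻¹)) := rfl
        rw [h3, h2] at h1
        exact h1
      have h1 : ∏ i, b i = 1 := by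
        have h2 : ∀ i, b i = (Y ^ (i : ℕ)) (f i : V) * ((Y ^ (i : ℕ)) (g i : V))⁻¹ := by
          intro i
          show (Y ^ (i : ℕ)) ((f i : V) * (g i : V)⁻¹) = _
          rw [map_mul, map_inv]
        simp_rw [h2]
        rw [Finset.prod_mul_distrib, Finset.prod_inv_distrib]
        have h3 : (∏ i : Fin p, (Y ^ (i : ℕ)) (f i : V)) = ∏ i : Fin p, (Y ^ (i : ℕ)) (g i : V) := hfg
        rw [h3, mul_inv_cancel]
      have h4 := indep hp hXC hC hfree hpinj b hb h1 j
      have h5 : (f j : V) * (g j : V)⁻¹ = 1 := by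
        apply (Y ^ (j : ℕ)).injective
        rw [map_one]
        exact h4
      exact mul_inv_eq_one.mp h5
    have h6 := Nat.card_le_card_of_injective Ψ hΨ
    rw [Nat.card_fun, Nat.card_fin] at h6
    exact h6
  · intro hbot v
    apply hpinj
    rw [← gen_prod hp hXC hC hfree v]
    apply Finset.prod_eq_one
    intro j _
    -- the `j`-th component is fixed by `C^j X`
    have h1 : (C ^ j * X) (nrm p (C ^ j * X) v) = nrm p (C ^ j * X) v := by
      apply apply_nrm
      rw [(hXC.pow_left j).mul_pow, hX, mul_one, pow_right_comm, hC, one_pow]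
    have h2 : ((Y ^ j)⁻¹ : MulAut V) (nrm p (C ^ j * X) v) ∈ fixS X := by
      rw [mem_fixS]
      have h3 := congrArg (fun t : MulAut V => t (((Y ^ j)⁻¹ : MulAut V) (nrm p (C ^ j * X) v))) (hYX j)
      have h4 : (Y ^ j * X) (((Y ^ j)⁻¹ : MulAut V) (nrm p (C ^ j * X) v)) =
          (C ^ j * X) (nrm p (C ^ j * X) v) := by
        refine Eq.trans h3 ?_
        show (C ^ j * X) ((Y ^ j) (((Y ^ j)⁻¹ : MulAut V) _)) = _
        rw [MulAut.apply_inv_self]
      have h5 : (Y ^ j) (X (((Y ^ j)⁻¹ : MulAut V) (nrm p (C ^ j * X) v))) = nrm p (C ^ j * X) v :=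
        h4.trans h1
      apply (Y ^ j).injective
      rw [h5, MulAut.apply_inv_self]
    rw [hbot, Subgroup.mem_bot] at h2
    have h3 := congrArg (Y ^ j) h2
    rwa [MulAut.apply_inv_self, map_one] at h3

end Norm

section ES

variable {E : Type*} [Group E] {p : ℕ} {z : E}

/-- An extraspecial-like group with the generator `z` of its centre. -/
structure ESData (p : ℕ) (E : Type*) [Group E] (z : E) : Prop where
  ord : orderOf z = p
  central : ∀ g : E, g * z = z * g
  center : ∀ e : E, (∀ g, e * g = g * e) → e ∈ Subgroup.zpowers z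
  comm : ∀ a b : E, ⁅a, b⁆ ∈ Subgroup.zpowers z
  pow : ∀ a : E, a ^ p ∈ Subgroup.zpowers z

theorem ESData.mem_central (h : ESData p E z) {w : E} (hw : w ∈ Subgroup.zpowers z) (g : E) : g * w = w * g := by
  obtain ⟨k, rfl⟩ := hw
  exact (Commute.zpow_right (h.central g) k)

theorem ESData.zpowers_eq (h : ESData p E z) (hp : p.Prime) {w : E} (hw : w ∈ Subgroup.zpowers z) (hw1 : w ≠ 1) :
    Subgroup.zpowers w = Subgroup.zpowers z := by
  apply le_antisymm
  · rwa [Subgroup.zpowers_le]
  · rw [Subgroup.zpowers_le]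
    obtain ⟨k, rfl⟩ := hw
    have hk : ¬ (p : ℤ) ∣ k := by
      rintro ⟨m, rfl⟩
      apply hw1
      show z ^ ((p : ℤ) * m) = 1
      rw [zpow_mul, zpow_natCast, ← h.ord, pow_orderOf_eq_one, one_zpow]
    obtain ⟨s, t, hst⟩ : IsCoprime (p : ℤ) k :=
      (Irreducible.coprime_iff_not_dvd (Nat.prime_iff_prime_int.mp hp).irreducible).mpr hk
    refine ⟨t, ?_⟩
    show ((fun x : ℤ => z ^ x) k) ^ t = z
    have h1 : z ^ (s * p + t * k) = z := by rw [hst, zpow_one]
    rw [zpow_add, mul_comm s, zpow_mul, zpow_natCast, ← h.ord, pow_orderOf_eq_one, one_zpow, one_mul,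
      mul_comm t, zpow_mul] at h1
    exact h1

/-- Commutation with a fixed element as a homomorphism to the centre. -/
def comHom (h : ESData p E z) (a : E) : E →* Subgroup.zpowers z :=
  MonoidHom.mk' (fun g => ⟨⁅g, a⁆, h.comm g a⟩) (by
    intro g g'
    apply Subtype.ext
    show ⁅g * g', a⁆ = ⁅g, a⁆ * ⁅g', a⁆
    have e : ⁅g * g', a⁆ = g * ⁅g', a⁆ * g⁻¹ * ⁅g, a⁆ := by
      simp only [commutatorElement_def]; group
    rw [e, h.mem_central (h.comm g' a) g, mul_inv_cancel_right, h.mem_central (h.comm g' a)])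

theorem comHom_coe (h : ESData p E z) (a g : E) : ((comHom h a g : Subgroup.zpowers z) : E) = ⁅g, a⁆ := rfl

theorem comHom_self (h : ESData p E z) (a : E) : comHom h a a = 1 := by
  apply Subtype.ext
  rw [comHom_coe, commutatorElement_self]
  rfl

theorem comHom_eq_one_iff (h : ESData p E z) (a g : E) : comHom h a g = 1 ↔ ⁅g, a⁆ = 1 := by
  constructor
  · intro h1
    have := congrArg Subtype.val h1
    rwa [comHom_coe] at this
  · intro h1
    apply Subtype.ext
    rwa [comHom_coe]

/-- The common centralizer. -/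
def cenF (h : ESData p E z) (a b : E) : Subgroup E := ((comHom h a).prod (comHom h b)).ker

theorem mem_cenF (h : ESData p E z) {a b g : E} : g ∈ cenF h a b ↔ ⁅g, a⁆ = 1 ∧ ⁅g, b⁆ = 1 := by
  rw [cenF, MonoidHom.mem_ker, MonoidHom.prod_apply, Prod.mk_eq_one, comHom_eq_one_iff, comHom_eq_one_iff]

theorem surj_prod (h : ESData p E z) (hp : p.Prime) {a b : E} (hab : ⁅a, b⁆ ≠ 1) :
    Function.Surjective ((comHom h a).prod (comHom h b)) := by
  rintro ⟨u, v⟩
  have hc := h.zpowers_eq hp (h.comm a b) hab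
  let cc : Subgroup.zpowers z := ⟨⁅a, b⁆, h.comm a b⟩
  have hall : ∀ u : Subgroup.zpowers z, ∃ i : ℤ, u = cc ^ i := by
    intro u
    have hu : (u : E) ∈ Subgroup.zpowers ⁅a, b⁆ := by rw [hc]; exact u.2
    obtain ⟨i, hi⟩ := hu
    exact ⟨i, Subtype.ext hi.symm⟩
  obtain ⟨i, rfl⟩ := hall u
  obtain ⟨j, rfl⟩ := hall v
  have h1 : comHom h a b = cc⁻¹ := by
    apply Subtype.ext
    rw [comHom_coe]
    exact (commutatorElement_inv a b).symm
  have h2 : comHom h b a = cc := rfl
  refine ⟨b ^ (-i) * a ^ j, ?_⟩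
  rw [MonoidHom.prod_apply, map_mul, map_mul, map_zpow, map_zpow, map_zpow, map_zpow, h1, h2, comHom_self,
    comHom_self]
  simp

theorem card_eq_cenF [Finite E] (h : ESData p E z) (hp : p.Prime) {a b : E} (hab : ⁅a, b⁆ ≠ 1) :
    Nat.card E = Nat.card (cenF h a b) * (p * p) := by
  have h1 := Subgroup.card_mul_index (cenF h a b)
  rw [cenF, Subgroup.index_ker, MonoidHom.range_eq_top.mpr (surj_prod h hp hab), Subgroup.card_top,
    Nat.card_prod, Nat.card_zpowers, h.ord] at h1
  exact h1.symm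

theorem exists_decomp (h : ESData p E z) (hp : p.Prime) {a b : E} (hab : ⁅a, b⁆ ≠ 1) (g : E) :
    ∃ i j : ℤ, ∃ f ∈ cenF h a b, g = b ^ i * a ^ j * f := by
  have hc := h.zpowers_eq hp (h.comm a b) hab
  let cc : Subgroup.zpowers z := ⟨⁅a, b⁆, h.comm a b⟩
  have hall : ∀ u : Subgroup.zpowers z, ∃ i : ℤ, u = cc ^ i := by
    intro u
    have hu : (u : E) ∈ Subgroup.zpowers ⁅a, b⁆ := by rw [hc]; exact u.2
    obtain ⟨i, hi⟩ := hu
    exact ⟨i, Subtype.ext hi.symm⟩
  obtain ⟨i, hi⟩ := hall (comHom h a g)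
  obtain ⟨j, hj⟩ := hall (comHom h b g)
  have h1 : comHom h a b = cc⁻¹ := by
    apply Subtype.ext
    rw [comHom_coe]
    exact (commutatorElement_inv a b).symm
  have h2 : comHom h b a = cc := rfl
  refine ⟨-i, j, (b ^ (-i) * a ^ j)⁻¹ * g, ?_, by group⟩
  rw [cenF, MonoidHom.mem_ker, map_mul, map_inv, MonoidHom.prod_apply, MonoidHom.prod_apply, map_mul, map_mul,
    map_zpow, map_zpow, map_zpow, map_zpow, h1, h2, comHom_self, comHom_self, hi, hj]
  simp

theorem commute_of_commutator_eq_one {x y : E} (h : ⁅x, y⁆ = 1) : x * y = y * x :=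
  (commutatorElement_eq_one_iff_mul_comm).mp h

/-- The common centralizer has the same structure. -/
theorem esData_cenF (h : ESData p E z) (hp : p.Prime) {a b : E} (hab : ⁅a, b⁆ ≠ 1)
    (hzF : z ∈ cenF h a b) : ESData p (cenF h a b) ⟨z, hzF⟩ := by
  have hlift : ∀ w : cenF h a b, (w : E) ∈ Subgroup.zpowers z → w ∈ Subgroup.zpowers (⟨z, hzF⟩ : cenF h a b) := by
    rintro w ⟨k, hk⟩
    exact ⟨k, Subtype.ext hk⟩
  refine ⟨?_, ?_, ?_, ?_, ?_⟩
  · rw [Subgroup.orderOf_mk]
    exact h.ord
  · intro g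
    exact Subtype.ext (h.central g)
  · rintro ⟨e, he⟩ hcen
    apply hlift
    apply h.center
    intro g
    obtain ⟨i, j, f, hf, rfl⟩ := exists_decomp h hp hab g
    obtain ⟨he1, he2⟩ := (mem_cenF h).mp he
    have c1 : e * a = a * e := commute_of_commutator_eq_one he1
    have c2 : e * b = b * e := commute_of_commutator_eq_one he2
    have c3 : e * f = f * e := congrArg Subtype.val (hcen ⟨f, hf⟩)
    have c4 : Commute e (b ^ i) := Commute.zpow_right c2 i
    have c5 : Commute e (a ^ j) := Commute.zpow_right c1 j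
    exact ((c4.mul_right c5).mul_right c3).eq
  · intro x y
    apply hlift
    exact h.comm x y
  · intro x
    apply hlift
    exact h.pow x

/-- Powers of a product in a group of class at most two. -/
theorem mul_pow_class2 {u v d : E} (hd : v * u = d * u * v) (h1 : Commute d u) (h2 : Commute d v) (n : ℕ) :
    (u * v) ^ n = u ^ n * v ^ n * d ^ (n.choose 2) := by
  have hvu : ∀ n : ℕ, v ^ n * u = d ^ n * u * v ^ n := by
    intro n
    induction n with
    | zero => simp
    | succ n ih =>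
      calc v ^ (n + 1) * u = v ^ n * (v * u) := by rw [pow_succ]; group
        _ = v ^ n * (d * u * v) := by rw [hd]
        _ = d * (v ^ n * u) * v := by
            have : v ^ n * d = d * v ^ n := ((h2.pow_right n).symm).eq
            rw [← mul_assoc, ← mul_assoc, this]
            group
        _ = d ^ (n + 1) * u * v ^ (n + 1) := by
            rw [ih, pow_succ' d, pow_succ v]
            group
  induction n with
  | zero => simp
  | succ n ih =>
    rw [pow_succ, ih]
    have e1 : (n + 1).choose 2 = n.choose 2 + n := by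
      rw [Nat.choose_succ_succ' n 1, Nat.choose_one_right, add_comm]
    rw [e1, pow_add d]
    have c1 : Commute (d ^ n.choose 2) u := h1.pow_left _
    have c2 : Commute (d ^ n.choose 2) v := h2.pow_left _
    calc u ^ n * v ^ n * d ^ n.choose 2 * (u * v) = u ^ n * (v ^ n * u) * (d ^ n.choose 2 * v) := by
          rw [mul_assoc (u ^ n * v ^ n), ← mul_assoc (d ^ n.choose 2), c1.eq]
          group
      _ = u ^ n * (d ^ n * u * v ^ n) * (v * d ^ n.choose 2) := by rw [hvu n, c2.eq]
      _ = u ^ n * (d ^ n * u) * (v ^ n * v) * d ^ n.choose 2 := by group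
      _ = (u ^ n * u) * d ^ n * (v ^ n * v) * d ^ n.choose 2 := by
          have : d ^ n * u = u * d ^ n := (h1.pow_left n).eq
          rw [this]
          group
      _ = u ^ (n + 1) * v ^ (n + 1) * (d ^ n.choose 2 * d ^ n) := by
          rw [← pow_succ, ← pow_succ]
          have c3 : Commute (d ^ n) (v ^ (n + 1)) := (h2.pow_left n).pow_right _
          rw [mul_assoc (u ^ (n + 1)), c3.eq]
          have c4 : Commute (d ^ n) (d ^ n.choose 2) := (Commute.refl d).pow_pow _ _
          rw [mul_assoc (u ^ (n + 1)), mul_assoc (v ^ (n + 1)), c4.eq]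
          group

theorem ESData.pow_eq_one (h : ESData p E z) {w : E} (hw : w ∈ Subgroup.zpowers z) : w ^ p = 1 := by
  obtain ⟨k, rfl⟩ := hw
  show (z ^ k) ^ p = 1
  rw [← zpow_natCast, ← zpow_mul, mul_comm, zpow_mul, zpow_natCast, ← h.ord, pow_orderOf_eq_one, one_zpow]

theorem ESData.eq_of_two (h : ESData 2 E z) {w : E} (hw : w ∈ Subgroup.zpowers z) (hw1 : w ≠ 1) : w = z := by
  obtain ⟨k, rfl⟩ := hw
  have hz : z ^ 2 = 1 := by rw [← h.ord, pow_orderOf_eq_one]
  rcases Int.even_or_odd' k with ⟨m, rfl | rfl⟩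
  · exact absurd (by
      show z ^ (2 * m) = 1
      rw [zpow_mul, zpow_ofNat, hz, one_zpow]) hw1
  · show z ^ (2 * m + 1) = z
    rw [zpow_add, zpow_mul, zpow_ofNat, hz, one_zpow, one_mul, zpow_one]

/-- The existence of a noncentral element of order `p`. -/
theorem exists_pair [Finite E] (h : ESData p E z) (hp : p.Prime) {w : ℕ} (hcard : Nat.card E = p ^ (2 * w + 3)) :
    (∃ x y : E, x ^ p = 1 ∧ ⁅x, y⁆ ≠ 1) ∨ (p = 2 ∧ w = 0 ∧ ∃ a b : E, ⁅a, b⁆ ≠ 1) := by
  have hnc : ∃ a b : E, ⁅a, b⁆ ≠ 1 := by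
    by_contra hcon
    push Not at hcon
    have h1 : Subgroup.zpowers z = ⊤ := by
      rw [eq_top_iff]
      intro e _
      apply h.center
      intro g
      exact commute_of_commutator_eq_one (hcon e g)
    have h2 : Nat.card E = p := by
      rw [← Subgroup.card_top, ← h1, Nat.card_zpowers, h.ord]
    rw [h2] at hcard
    have h3 : p ^ 1 < p ^ (2 * w + 3) := Nat.pow_lt_pow_right hp.one_lt (by omega)
    rw [pow_one] at h3
    omega
  obtain ⟨a, b, hab⟩ := hnc
  by_cases ha : a ^ p = 1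
  · exact Or.inl ⟨a, b, ha, hab⟩
  by_cases hb : b ^ p = 1
  · refine Or.inl ⟨b, a, hb, ?_⟩
    intro h1
    apply hab
    rw [← commutatorElement_inv, h1, inv_one]
  have hcommv : ∀ k : ℤ, ⁅a * b ^ k, b⁆ = ⁅a, b⁆ := by
    intro k
    have c1 : b ^ k * b = b * b ^ k := ((Commute.refl b).zpow_left k).eq
    simp only [commutatorElement_def]
    calc a * b ^ k * b * (a * b ^ k)⁻¹ * b⁻¹ = a * (b ^ k * b) * (b ^ k)⁻¹ * a⁻¹ * b⁻¹ := by group
      _ = a * b * a⁻¹ * b⁻¹ := by rw [c1]; group
  by_cases hp2 : p = 2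
  · subst hp2
    by_cases hw : w = 0
    · exact Or.inr ⟨rfl, hw, a, b, hab⟩
    left
    have hF := card_eq_cenF h hp hab
    rw [hcard] at hF
    obtain ⟨u, huF, hu⟩ : ∃ u ∈ cenF h a b, u ∉ Subgroup.zpowers z := by
      by_contra hcon
      push Not at hcon
      have h1 : Nat.card (cenF h a b) ≤ 2 := by
        have h2 := Subgroup.card_le_of_le hcon
        rwa [Nat.card_zpowers, h.ord] at h2
      have h3 : 2 ^ (2 * w + 3) = 2 ^ (2 * w + 1) * 4 := by ring
      have h4 : 2 ^ 2 ≤ 2 ^ (2 * w + 1) := Nat.pow_le_pow_right (by norm_num) (by omega)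
      omega
    have hnu : ¬ ∀ g, u * g = g * u := fun hc => hu (h.center u hc)
    push Not at hnu
    obtain ⟨y, hy⟩ := hnu
    by_cases hu2 : u ^ 2 = 1
    · exact ⟨u, y, hu2, fun hc => hy (commute_of_commutator_eq_one hc)⟩
    · obtain ⟨hu1, hu3⟩ := (mem_cenF h).mp huF
      have c1 : u * a = a * u := commute_of_commutator_eq_one hu1
      have c2 : u * b = b * u := commute_of_commutator_eq_one hu3
      refine ⟨a * u, b, ?_, ?_⟩
      · have e1 := h.eq_of_two (h.pow a) ha
        have e2 := h.eq_of_two (h.pow u) hu2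
        have e3 : (a * u) ^ 2 = a ^ 2 * u ^ 2 := by
          rw [sq, sq, sq]
          calc a * u * (a * u) = a * (u * a) * u := by group
            _ = a * (a * u) * u := by rw [c1]
            _ = a * a * (u * u) := by group
        rw [e3, e1, e2, ← sq, ← h.ord, pow_orderOf_eq_one]
      · intro hc
        apply hab
        rw [← hc]
        simp only [commutatorElement_def]
        calc a * b * a⁻¹ * b⁻¹ = a * (b * u) * u⁻¹ * a⁻¹ * b⁻¹ := by group
          _ = a * (u * b) * u⁻¹ * a⁻¹ * b⁻¹ := by rw [c2]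
          _ = a * u * b * (a * u)⁻¹ * b⁻¹ := by group
  · left
    have hzb := h.zpowers_eq hp (h.pow b) hb
    have hmem : (a ^ p)⁻¹ ∈ Subgroup.zpowers (b ^ p) := by
      rw [hzb]
      exact Subgroup.inv_mem _ (h.pow a)
    obtain ⟨k, hk⟩ := hmem
    have hk' : (b ^ p) ^ k = (a ^ p)⁻¹ := hk
    refine ⟨a * b ^ k, b, ?_, by rw [hcommv]; exact hab⟩
    have hd : ⁅b ^ k, a⁆ ∈ Subgroup.zpowers z := h.comm _ _
    have hpow := mul_pow_class2 (u := a) (v := b ^ k) (d := ⁅b ^ k, a⁆) (by
        simp only [commutatorElement_def]; group)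
      (h.mem_central hd a).symm (h.mem_central hd _).symm p
    rw [hpow]
    have h1 : (b ^ k) ^ p = (a ^ p)⁻¹ := by
      rw [← hk', ← zpow_natCast, ← zpow_mul, mul_comm, zpow_mul, zpow_natCast]
    have h2 : p ∣ p.choose 2 := hp.dvd_choose_self (by norm_num) (by
      have := hp.two_le
      omega)
    obtain ⟨m, hm⟩ := h2
    rw [h1, mul_inv_cancel, one_mul, hm, pow_mul, h.pow_eq_one hd, one_pow]

end ES

section Main

universe u v

variable {p r n : ℕ} [hp : Fact p.Prime] [hr : Fact r.Prime]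

/-- The bound for a fixed-point-free central element. -/
theorem main_bound (hpr : p ≠ r) (hn : 1 ≤ n) (hdiv : p ∣ r ^ n - 1)
    (hmin : ∀ k : ℕ, 1 ≤ k → p ∣ r ^ k - 1 → n ≤ k) (w : ℕ) :
    ∀ (V : Type u) [CommGroup V] [Finite V] (E : Type v) [Group E] [Finite E] (ρ : E →* MulAut V) (z : E),
      ESData p E z → Nat.card E = p ^ (2 * w + 1) → (∀ v : V, v ^ r = 1) → Nontrivial V →
      (∀ v : V, ρ z v = v → v = 1) → r ^ (n * p ^ w) ≤ Nat.card V := by
  have hpc : p.Coprime r := (Nat.coprime_primes hp.out hr.out).mpr hpr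
  induction w with
  | zero =>
    intro V _ _ E _ _ ρ z hES _ hV hnt hfix
    have hrV : IsPGroup r V := fun v => ⟨1, by rw [pow_one]; exact hV v⟩
    obtain ⟨m, hm⟩ := IsPGroup.iff_card.mp hrV
    have hT : (ρ z) ^ p = 1 := by
      rw [← map_pow, ← hES.ord, pow_orderOf_eq_one, map_one]
    have hK : IsPGroup p (Subgroup.zpowers (ρ z)) := by
      rintro ⟨g, k, rfl⟩
      refine ⟨1, Subtype.ext ?_⟩
      show ((ρ z) ^ k) ^ p ^ 1 = 1
      rw [pow_one, ← zpow_natCast, ← zpow_mul, mul_comm, zpow_mul, zpow_natCast, hT, one_zpow]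
    have hfp : Nat.card (MulAction.fixedPoints (Subgroup.zpowers (ρ z)) V) = 1 := by
      rw [Nat.card_eq_one_iff_unique]
      refine ⟨⟨?_⟩, ⟨⟨1, ?_⟩⟩⟩
      · rintro ⟨a, ha⟩ ⟨b, hb⟩
        apply Subtype.ext
        have hfixv : ∀ a ∈ MulAction.fixedPoints (Subgroup.zpowers (ρ z)) V, a = 1 := by
          intro a ha
          apply hfix
          exact ha ⟨ρ z, Subgroup.mem_zpowers _⟩
        exact (hfixv a ha).trans (hfixv b hb).symm
      · rintro ⟨g, hg⟩
        exact map_one g
    have hmod := hK.card_modEq_card_fixedPoints V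
    rw [hfp] at hmod
    have hm0 : m ≠ 0 := by
      rintro rfl
      rw [pow_zero] at hm
      exact absurd hm (Finite.one_lt_card (α := V)).ne'
    have h1 : p ∣ r ^ m - 1 := by
      rw [← hm]
      exact (Nat.modEq_iff_dvd' Nat.card_pos).mp hmod.symm
    have h2 := hmin m (Nat.pos_of_ne_zero hm0) h1
    rw [pow_zero, mul_one, hm]
    exact Nat.pow_le_pow_right hr.out.pos h2
  | succ w ih =>
    intro V _ _ E _ _ ρ z hES hcard hV hnt hfix
    have hcard' : Nat.card E = p ^ (2 * w + 3) := by rw [hcard]; ring_nf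
    have hzfree : ∀ c : E, c ∈ Subgroup.zpowers z → c ≠ 1 → ∀ v : V, ρ c v = v → v = 1 := by
      intro c hc hc1 v hv
      apply hfix
      have h1 : z ∈ Subgroup.zpowers c := by
        rw [hES.zpowers_eq hp.out hc hc1]
        exact Subgroup.mem_zpowers z
      obtain ⟨k, hk⟩ := h1
      have hk' : c ^ k = z := hk
      rw [← hk', map_zpow]
      have h2 : ∀ k : ℕ, (ρ c ^ k) v = v := fun k => pow_fixed hv k
      rcases Int.eq_nat_or_neg k with ⟨m, rfl | rfl⟩
      · rw [zpow_natCast]; exact h2 m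
      · rw [zpow_neg, zpow_natCast]
        have h3 := h2 m
        conv_lhs => rw [← h3]
        exact MulAut.inv_apply_self _ _ _
    have hpinj : ∀ v : V, v ^ p = 1 → v = 1 := by
      intro v hv1
      have h1 := (pow_gcd_eq_one (a := v) (m := p) (n := r)).mpr ⟨hv1, hV v⟩
      rwa [hpc.gcd_eq_one, pow_one] at h1
    rcases exists_pair hES hp.out hcard' with ⟨x, y, hx, hxy⟩ | ⟨hp2, hw, a, b, hab⟩
    · -- the main case
      let c : E := y * x * y⁻¹ * x⁻¹
      have hc0 : c = ⁅y, x⁆ := rfl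
      have hcmem : c ∈ Subgroup.zpowers z := hES.comm y x
      have hc1 : c ≠ 1 := by
        intro h1
        apply hxy
        rw [← commutatorElement_inv, ← hc0, h1, inv_one]
      have hcentral : ∀ g, g * c = c * g := fun g => hES.mem_central hcmem g
      have hcp : c ^ p = 1 := hES.pow_eq_one hcmem
      have hXC : Commute (ρ c) (ρ x) := by
        show ρ c * ρ x = ρ x * ρ c
        rw [← map_mul, ← map_mul, hcentral x]
      have hYC : Commute (ρ y) (ρ c) := by
        show ρ y * ρ c = ρ c * ρ y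
        rw [← map_mul, ← map_mul, hcentral y]
      have hrel : ρ y * ρ x = (ρ c * ρ x) * ρ y := by
        rw [← map_mul, ← map_mul, ← map_mul]
        congr 1
        simp only [c]
        group
      have hC : (ρ c) ^ p = 1 := by rw [← map_pow, hcp, map_one]
      have hX : (ρ x) ^ p = 1 := by rw [← map_pow, hx, map_one]
      have hfree : ∀ a, ¬ p ∣ a → ∀ v, (ρ c ^ a) v = v → v = 1 := by
        intro a ha v hv
        have hca : c ^ a ≠ 1 := by
          intro h1
          have h2 : orderOf c = p := by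
            apply orderOf_eq_prime hcp hc1
          exact ha (h2 ▸ orderOf_dvd_of_pow_eq_one h1)
        apply hzfree (c ^ a) (Subgroup.pow_mem _ hcmem a) hca
        rwa [map_pow]
      obtain ⟨hb1, hb2⟩ := fix_bound (p := p) (Y := ρ y) hp.out.pos hXC hC hX hfree hpinj hYC hrel
      have hzF : z ∈ cenF hES x y := by
        rw [mem_cenF]
        constructor <;> exact (commutatorElement_eq_one_iff_mul_comm).mpr (hES.central _).symm
      have hESF := esData_cenF hES hp.out hxy hzF
      have hcardF := card_eq_cenF hES hp.out hxy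
      have hcardF' : Nat.card (cenF hES x y) = p ^ (2 * w + 1) := by
        rw [hcard'] at hcardF
        have e : p ^ (2 * w + 3) = p ^ (2 * w + 1) * (p * p) := by ring
        rw [e] at hcardF
        exact (Nat.eq_of_mul_eq_mul_right (Nat.mul_pos hp.out.pos hp.out.pos) hcardF).symm
      -- the restricted action
      have hinv : ∀ (f : cenF hES x y) (b : V), b ∈ fixS (ρ x) → ρ f b ∈ fixS (ρ x) := by
        intro f b hb
        rw [mem_fixS] at hb ⊢
        have h1 : ρ x * ρ f = ρ f * ρ x := by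
          rw [← map_mul, ← map_mul]
          congr 1
          exact ((commutatorElement_eq_one_iff_mul_comm).mp ((mem_cenF hES).mp f.2).1).symm
        have h2 := congrArg (fun t : MulAut V => t b) h1
        simp only [MulAut.mul_apply, hb] at h2
        exact h2
      let ρ' : cenF hES x y →* MulAut (fixS (ρ x)) := MonoidHom.mk' (fun f =>
        { toFun := fun b => ⟨ρ f b, hinv f b b.2⟩
          invFun := fun b => ⟨ρ f⁻¹ b, hinv f⁻¹ b b.2⟩
          left_inv := fun b => Subtype.ext (by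
            show ρ (f⁻¹ : cenF hES x y) (ρ f b) = b
            rw [← MulAut.mul_apply, ← map_mul, (by simp : ((f⁻¹ : cenF hES x y) : E) * (f : E) = 1), map_one]
            rfl)
          right_inv := fun b => Subtype.ext (by
            show ρ f (ρ (f⁻¹ : cenF hES x y) b) = b
            rw [← MulAut.mul_apply, ← map_mul, (by simp : (f : E) * ((f⁻¹ : cenF hES x y) : E) = 1), map_one]
            rfl)
          map_mul' := fun a b => Subtype.ext (map_mul (ρ f) _ _) }) (by
        intro f g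
        ext b
        show ρ (f * g) b = ρ f (ρ g b)
        rw [map_mul]
        rfl)
      have hnt' : Nontrivial (fixS (ρ x)) := by
        by_contra hcon
        rw [not_nontrivial_iff_subsingleton] at hcon
        have hbot : fixS (ρ x) = ⊥ := by
          rw [eq_bot_iff]
          intro b hb
          have := Subsingleton.elim (⟨b, hb⟩ : fixS (ρ x)) 1
          exact congrArg Subtype.val this
        obtain ⟨v, hv⟩ := exists_ne (1 : V)
        exact hv (hb2 hbot v)
      have hIH := ih (fixS (ρ x)) (cenF hES x y) ρ' ⟨z, hzF⟩ hESF hcardF'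
        (fun b => Subtype.ext (hV b)) hnt' (fun b hb => Subtype.ext (hfix b (congrArg Subtype.val hb)))
      calc r ^ (n * p ^ (w + 1)) = (r ^ (n * p ^ w)) ^ p := by rw [← pow_mul]; congr 1; ring
        _ ≤ Nat.card (fixS (ρ x)) ^ p := Nat.pow_le_pow_left hIH p
        _ ≤ Nat.card V := hb1
    · -- the quaternion case
      subst hp2
      subst hw
      have hr2 : r ≠ 2 := hpr.symm
      have hrodd : Odd r := hr.out.odd_of_ne_two hr2
      have hn1 : n = 1 := by
        have h1 : 2 ∣ r ^ 1 - 1 := by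
          rw [pow_one]
          obtain ⟨m, hm⟩ := hrodd
          omega
        have := hmin 1 le_rfl h1
        omega
      subst hn1
      have hrV : IsPGroup r V := fun v => ⟨1, by rw [pow_one]; exact hV v⟩
      obtain ⟨m, hm⟩ := IsPGroup.iff_card.mp hrV
      have hm2 : 2 ≤ m := by
        by_contra hcon
        have hm1 : m = 0 ∨ m = 1 := by omega
        rcases hm1 with rfl | rfl
        · rw [pow_zero] at hm
          exact absurd hm (Finite.one_lt_card (α := V)).ne'
        · rw [pow_one] at hm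
          haveI : Fact (Nat.card V).Prime := ⟨hm ▸ hr.out⟩
          haveI : IsCyclic V := isCyclic_of_prime_card rfl
          let e := IsCyclic.mulAutMulEquiv V
          have hcomm : ∀ s t : MulAut V, s * t = t * s := by
            intro s t
            apply e.injective
            rw [map_mul, map_mul, mul_comm]
          have h1 : ρ ⁅a, b⁆ = 1 := by
            rw [map_commutatorElement, commutatorElement_eq_one_iff_mul_comm]
            exact hcomm _ _
          obtain ⟨v, hv⟩ := exists_ne (1 : V)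
          apply hv
          apply hzfree _ (hES.comm a b) hab
          rw [h1]
          rfl
      rw [hm]
      apply Nat.pow_le_pow_right hr.out.pos
      simpa using hm2

/-- Restriction of an action to an invariant subgroup. -/
def restrictAct {V E : Type*} [CommGroup V] [Group E] (ρ : E →* MulAut V) (B : Subgroup V)
    (hinv : ∀ g : E, ∀ b ∈ B, ρ g b ∈ B) : E →* MulAut B :=
  MonoidHom.mk' (fun f =>
    { toFun := fun b => ⟨ρ f b, hinv f b b.2⟩
      invFun := fun b => ⟨ρ f⁻¹ b, hinv f⁻¹ b b.2⟩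
      left_inv := fun b => Subtype.ext (by
        show ρ f⁻¹ (ρ f b) = b
        rw [← MulAut.mul_apply, ← map_mul, inv_mul_cancel, map_one]
        rfl)
      right_inv := fun b => Subtype.ext (by
        show ρ f (ρ f⁻¹ b) = b
        rw [← MulAut.mul_apply, ← map_mul, mul_inv_cancel, map_one]
        rfl)
      map_mul' := fun a b => Subtype.ext (map_mul (ρ f) _ _) }) (by
    intro f g
    ext b
    show ρ (f * g) b = ρ f (ρ g b)
    rw [map_mul]
    rfl)

/-- The version for an arbitrary action of an extraspecial-like group, with a nontrivial central action. -/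
theorem bound_of_nontrivial {V E : Type*} [CommGroup V] [Finite V] [Group E] [Finite E] (hpr : p ≠ r)
    (hn : 1 ≤ n) (hdiv : p ∣ r ^ n - 1) (hmin : ∀ k : ℕ, 1 ≤ k → p ∣ r ^ k - 1 → n ≤ k) {w : ℕ}
    (ρ : E →* MulAut V) (z : E) (hES : ESData p E z) (hcard : Nat.card E = p ^ (2 * w + 1))
    (hV : ∀ v : V, v ^ r = 1) (hz : ρ z ≠ 1) : r ^ (n * p ^ w) ≤ Nat.card V := by
  have hpc : p.Coprime r := (Nat.coprime_primes hp.out hr.out).mpr hpr
  have hT : (ρ z) ^ p = 1 := by
    rw [← map_pow, ← hES.ord, pow_orderOf_eq_one, map_one]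
  have hinv : ∀ g : E, ∀ b ∈ (nrm p (ρ z)).ker, ρ g b ∈ (nrm p (ρ z)).ker := by
    intro g b hb
    rw [MonoidHom.mem_ker] at hb ⊢
    have hc : Commute (ρ g) (ρ z) := by
      show ρ g * ρ z = ρ z * ρ g
      rw [← map_mul, ← map_mul, hES.central g]
    have h1 : ∀ m : ℕ, (ρ z ^ m) (ρ g b) = ρ g ((ρ z ^ m) b) := by
      intro m
      have := (hc.pow_right m).eq
      have h2 := congrArg (fun t : MulAut V => t b) this
      exact h2.symm
    rw [nrm_apply] at hb ⊢
    simp_rw [h1]
    rw [← map_prod, hb, map_one]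
  have hbound := main_bound hpr hn hdiv hmin w (nrm p (ρ z)).ker E
    (restrictAct ρ _ hinv) z hES hcard (fun v => Subtype.ext (hV v.1)) ?_ ?_
  · exact hbound.trans (Subgroup.card_le_card_group _)
  · have h1 : ∃ a : V, ρ z a ≠ a := by
      by_contra hcon
      push Not at hcon
      apply hz
      ext a
      exact hcon a
    obtain ⟨a, ha⟩ := h1
    have hmem : (ρ z a) * a⁻¹ ∈ (nrm p (ρ z)).ker := by
      rw [MonoidHom.mem_ker, map_mul, map_inv]
      have h2 : nrm p (ρ z) (ρ z a) = ρ z (nrm p (ρ z) a) := by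
        rw [nrm_apply, nrm_apply, map_prod]
        apply Finset.prod_congr rfl
        intro m _
        have := ((Commute.refl (ρ z)).pow_right m).eq
        exact (congrArg (fun t : MulAut V => t a) this).symm
      rw [h2, apply_nrm hT, mul_inv_cancel]
    refine ⟨⟨⟨_, hmem⟩, 1, ?_⟩⟩
    intro h3
    apply ha
    have h4 := congrArg Subtype.val h3
    exact mul_inv_eq_one.mp h4
  · rintro ⟨v, hv⟩ hfix
    have hv' : ρ z v = v := congrArg Subtype.val hfix
    rw [MonoidHom.mem_ker, nrm_of_fixed hv'] at hv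
    apply Subtype.ext
    have h1 := (pow_gcd_eq_one (a := v) (m := p) (n := r)).mpr ⟨hv, hV v⟩
    rwa [hpc.gcd_eq_one, pow_one] at h1

/-- The extraspecial group with a generator of its centre. -/
theorem exists_esData {E : Type*} [Group E] [Finite E] (hE : Cfsg.IsExtraspecial p E) :
    ∃ z : E, ESData p E z := by
  obtain ⟨⟨hpg, hfr, hcomm⟩, hcen⟩ := hE
  haveI : Fact (Nat.card (Subgroup.center E)).Prime := ⟨hcen ▸ hp.out⟩
  haveI : IsCyclic (Subgroup.center E) := isCyclic_of_prime_card rfl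
  obtain ⟨z, hz⟩ := IsCyclic.exists_generator (α := Subgroup.center E)
  have hzp : Subgroup.zpowers (z : E) = Subgroup.center E := by
    apply le_antisymm
    · rw [Subgroup.zpowers_le]
      exact z.2
    · intro e he
      obtain ⟨k, hk⟩ := hz ⟨e, he⟩
      refine ⟨k, ?_⟩
      have := congrArg Subtype.val hk
      simpa using this
  refine ⟨z, ?_, ?_, ?_, ?_, ?_⟩
  · rw [Subgroup.orderOf_coe, orderOf_eq_card_of_forall_mem_zpowers hz, hcen]
  · intro g
    exact (Subgroup.mem_center_iff.mp z.2 g)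
  · intro e he
    rw [hzp, Subgroup.mem_center_iff]
    exact fun g => (he g).symm
  · intro a b
    rw [hzp, ← hcomm]
    exact Subgroup.commutator_mem_commutator (Subgroup.mem_top a) (Subgroup.mem_top b)
  · intro a
    rw [hzp, ← hfr]
    exact Cfsg.Agent.Lib.Transfer.pow_mem_frattini hpg a

/-- The bound for an extraspecial group acting faithfully by conjugation. -/
theorem es_bound_ambient {G : Type*} [Group G] [Finite G] (hpr : p ≠ r) (E A : Subgroup G) (w : ℕ)
    (hE : Cfsg.IsExtraspecial p ↥E) (hEcard : Nat.card ↥E = p ^ (2 * w + 1))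
    (hA : Cfsg.IsElementaryAbelian r A) (hnorm : E ≤ Subgroup.normalizer (A : Set G))
    (hfaith : E ⊓ Subgroup.centralizer (A : Set G) = ⊥) (hn : 1 ≤ n) (hdiv : p ∣ r ^ n - 1)
    (hmin : ∀ k : ℕ, 1 ≤ k → p ∣ r ^ k - 1 → n ≤ k) : r ^ (n * p ^ w) ≤ Nat.card ↥A := by
  letI : CommGroup ↥A := { (inferInstance : Group ↥A) with mul_comm := fun a b => hA.1.is_comm.comm a b }
  have hmemc : ∀ g : E, ∀ a ∈ A, (g : G) * a * (g : G)⁻¹ ∈ A := fun g a ha =>
    (Subgroup.mem_normalizer_iff.mp (hnorm g.2) a).mp ha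
  let ρ : E →* MulAut ↥A := MonoidHom.mk' (fun g =>
    { toFun := fun a => ⟨(g : G) * a * (g : G)⁻¹, hmemc g a a.2⟩
      invFun := fun a => ⟨((g⁻¹ : E) : G) * a * ((g⁻¹ : E) : G)⁻¹, hmemc g⁻¹ a a.2⟩
      left_inv := fun a => Subtype.ext (by simp [mul_assoc])
      right_inv := fun a => Subtype.ext (by simp [mul_assoc])
      map_mul' := fun a b => Subtype.ext (by simp [mul_assoc]) }) (by
    intro f g
    ext a
    show ((f * g : E) : G) * a * ((f * g : E) : G)⁻¹ = (f : G) * ((g : G) * a * (g : G)⁻¹) * (f : G)⁻¹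
    simp [mul_assoc])
  obtain ⟨z, hES⟩ := exists_esData hE
  apply bound_of_nontrivial hpr hn hdiv hmin ρ z hES hEcard (fun v => Subtype.ext (hA.2 v v.2))
  intro hz
  have hz1 : z = 1 := by
    have h1 : (z : G) ∈ E ⊓ Subgroup.centralizer (A : Set G) := by
      refine Subgroup.mem_inf.mpr ⟨z.2, Subgroup.mem_centralizer_iff.mpr ?_⟩
      intro a ha
      have h2 : ρ z ⟨a, ha⟩ = ⟨a, ha⟩ := by rw [hz]; rfl
      have h3 : (z : G) * a * (z : G)⁻¹ = a := congrArg Subtype.val h2
      rw [mul_inv_eq_iff_eq_mul] at h3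
      exact h3.symm
    rw [hfaith, Subgroup.mem_bot] at h1
    exact Subtype.ext h1
  have h2 := hES.ord
  rw [hz1, orderOf_one] at h2
  exact hp.out.one_lt.ne h2

end Main

end Cfsg.Agent.Lib.Amalgam.ESBound
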